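import Cfsg.Agent.H924.U33.Fin
import Cfsg.Agent.H698.U33.Bridge
import Cfsg.Agent.H698.U33.Clo.Dat

/-!
# S5525, box H2: `ω` of the closure certificate is the transposition 53 (helper924)
-/

set_option autoImplicit false
set_option maxRecDepth 100000

namespace Cfsg.Agent.H924.U33.Om

open Cfsg.Agent.BabyM.Conc Cfsg.Agent.H819.U33 Cfsg.Agent.H924.U33 Cfsg.Agent.H924.U33.Rel
open Cfsg.Agent.H698.U33 Cfsg.Agent.H698.U33.Clo

theorem om_chk : BM.StageW.chk (flat 18 L18 om) (tw 53) = true := by decide +kernel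

/-- **`ω` is the transposition 53.** -/
theorem homt : wd 18 S18 om = Cfsg.Agent.H698.U33.tn Cfsg.Agent.H924.U33.Fin.t i0 := by
  rw [tn_of _ (show i0 < 3510 by unfold i0; norm_num), wd_flat, eq_of om_chk]
  exact (T_eq 53).symm

end Cfsg.Agent.H924.U33.Om
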