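import Cfsg.Agent.H924.U33.Rel
import Cfsg.Agent.H763.U33.Dat
import Cfsg.Agent.H698.U33.Let

/-!
# S5525, box H2: the action on the 3510 transpositions (helper924; words of helper64)

`T i` (`i < 3510`): the transpositions. `act` : `d a * T i * d a = T (π a i)`, `acts` : the same for `s = g [.Z3]`,
`act3` : `(S3 k)⁻¹ * T i * S3 k = T (tabs k i)` for the letters `tau, w4, w5` on the tables of helper763.
-/

set_option autoImplicit false
set_option maxRecDepth 100000

namespace Cfsg.Agent.H924.U33.Act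

open Cfsg.Agent.BabyM.Conc Cfsg.Agent.H819.U33 Cfsg.Agent.H123.Cls Cfsg.Agent.H924.U33 Cfsg.Agent.H924.U33.Tab
open Cfsg.Agent.H924.U33.Rel

theorem sq : ∀ a < 8, d a * d a = 1 := by
  intro a ha
  have h := eq_of ((allN_iff _ _).1 sq_chk a ha)
  rw [g_append, g_nil] at h
  exact h

theorem cmb_symm_chk : (allN (fun a => allN (fun b => sel (cmb 8 CM a b) (cmb 8 CM b a) (sel (cmb 8 CM b a) false true)) 8) 8) = true := by
  decide +kernel

theorem cmb_symm {a b : ℕ} (ha : a < 8) (hb : b < 8) : cmb 8 CM a b = cmb 8 CM b a := by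
  have h := (allN_iff _ _).1 ((allN_iff _ _).1 cmb_symm_chk a ha) b hb
  rcases sel_cases h with ⟨h1, h2⟩ | ⟨h1, h2⟩
  · rw [h1, h2]
  · rcases sel_cases h2 with ⟨-, h3⟩ | ⟨h3, -⟩
    · exact absurd h3 (by decide)
    · rw [h1, h3]

theorem rel_lt {a b : ℕ} (ha : a < 8) (hb : b < a) :
    (cmb 8 CM a b = true ∧ d a * d b = d b * d a) ∨ (cmb 8 CM a b = false ∧ d a * d b * d a = d b * d a * d b) := by
  have h := (allN_iff _ _).1 ((allN_iff _ _).1 rel_chk a ha) b hb
  rcases sel_cases h with ⟨h1, h2⟩ | ⟨h1, h2⟩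
  · refine Or.inl ⟨h1, ?_⟩
    have h3 := eq_of h2
    rw [g_append, g_append] at h3
    exact h3
  · refine Or.inr ⟨h1, ?_⟩
    have h3 := eq_of h2
    rw [g_append, g_append, g_append, g_append, ← mul_assoc, ← mul_assoc] at h3
    exact h3

theorem com : ∀ a < 8, ∀ b < 8, cmb 8 CM a b = true → d a * d b = d b * d a := by
  intro a ha b hb h
  rcases lt_trichotomy a b with h1 | rfl | h1
  · rcases rel_lt hb h1 with ⟨-, h2⟩ | ⟨h2, -⟩
    · exact h2.symm
    · rw [cmb_symm ha hb, h2] at h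
      exact absurd h (by decide)
  · rfl
  · rcases rel_lt ha h1 with ⟨-, h2⟩ | ⟨h2, -⟩
    · exact h2
    · rw [h2] at h
      exact absurd h (by decide)

theorem br : ∀ a < 8, ∀ b < 8, a ≠ b → cmb 8 CM a b = false → d a * d b * d a = d b * d a * d b := by
  intro a ha b hb hab h
  rcases lt_trichotomy a b with h1 | h1 | h1
  · rcases rel_lt hb h1 with ⟨h2, -⟩ | ⟨-, h2⟩
    · rw [cmb_symm ha hb, h2] at h
      exact absurd h (by decide)
    · exact h2.symm
  · exact absurd h1 hab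
  · rcases rel_lt ha h1 with ⟨h2, -⟩ | ⟨-, h2⟩
    · rw [h2] at h
      exact absurd h (by decide)
    · exact h2

/-! ### the generators in the table -/

theorem T0 : T 0 = d 0 := by
  unfold T tt
  rw [show lk 8 DE 0 = 0 by decide +kernel, tn]
  rfl

theorem T381 : T 381 = d 1 :=
  gen_step (m := 377) T0 (sq 0 (by norm_num)) (br 0 (by norm_num) 1 (by norm_num) (by norm_num) (by decide +kernel))
    (by decide +kernel) (by decide +kernel) (by decide +kernel) (by decide +kernel) (by decide +kernel) (by decide +kernel)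

theorem T3 : T 3 = d 2 :=
  gen_step (m := 394) T381 (sq 1 (by norm_num)) (br 1 (by norm_num) 2 (by norm_num) (by norm_num) (by decide +kernel))
    (by decide +kernel) (by decide +kernel) (by decide +kernel) (by decide +kernel) (by decide +kernel) (by decide +kernel)

theorem T3453 : T 3453 = d 3 :=
  gen_step (m := 2544) T381 (sq 1 (by norm_num)) (br 1 (by norm_num) 3 (by norm_num) (by norm_num) (by decide +kernel))
    (by decide +kernel) (by decide +kernel) (by decide +kernel) (by decide +kernel) (by decide +kernel) (by decide +kernel)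

theorem T1339 : T 1339 = d 4 :=
  gen_step (m := 292) T3453 (sq 3 (by norm_num)) (br 3 (by norm_num) 4 (by norm_num) (by norm_num) (by decide +kernel))
    (by decide +kernel) (by decide +kernel) (by decide +kernel) (by decide +kernel) (by decide +kernel) (by decide +kernel)

theorem T1214 : T 1214 = d 5 :=
  gen_step (m := 3498) T1339 (sq 4 (by norm_num)) (br 4 (by norm_num) 5 (by norm_num) (by norm_num) (by decide +kernel))
    (by decide +kernel) (by decide +kernel) (by decide +kernel) (by decide +kernel) (by decide +kernel) (by decide +kernel)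

theorem T382 : T 382 = d 6 :=
  gen_step (m := 588) T3453 (sq 3 (by norm_num)) (br 3 (by norm_num) 6 (by norm_num) (by norm_num) (by decide +kernel))
    (by decide +kernel) (by decide +kernel) (by decide +kernel) (by decide +kernel) (by decide +kernel) (by decide +kernel)

theorem T1191 : T 1191 = d 7 :=
  gen_step (m := 3504) T1339 (sq 4 (by norm_num)) (br 4 (by norm_num) 7 (by norm_num) (by norm_num) (by decide +kernel))
    (by decide +kernel) (by decide +kernel) (by decide +kernel) (by decide +kernel) (by decide +kernel) (by decide +kernel)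

theorem gen : ∀ a < 8, T (nth GI a) = d a := by
  intro a ha
  interval_cases a
  · exact T0
  · exact T381
  · exact T3
  · exact T3453
  · exact T1339
  · exact T1214
  · exact T382
  · exact T1191

theorem dir_of {a i j : ℕ} (h : BM.StageW.chk (DL a ++ (tw i ++ DL a)) (tw j) = true) (hj : lk 12 (nth PT a) i = j) :
    d a * T i * d a = T (lk 12 (nth PT a) i) := by
  have h1 := eq_of h
  rw [g_append, g_append, ← T_eq, ← T_eq, ← mul_assoc] at h1
  rw [hj]
  exact h1

theorem dir_of' {a i j : ℕ} {v w : List Ltr} (h1 : BM.StageW.chk (tw i) v = true) (h2 : BM.StageW.chk (tw j) w = true)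
    (h3 : BM.StageW.chk (DL a ++ (v ++ DL a)) w = true) (hj : lk 12 (nth PT a) i = j) :
    d a * T i * d a = T (lk 12 (nth PT a) i) := by
  have h4 := eq_of h3
  rw [g_append, g_append, ← eq_of h1, ← eq_of h2, ← T_eq, ← T_eq, ← mul_assoc] at h4
  rw [hj]
  exact h4

theorem dir : ∀ a < 8, ∀ i < 3510, a * 4096 + i ∈ DIR → d a * T i * d a = T (lk 12 (nth PT a) i) := by
  intro a ha i hi h
  have h1 : a * 4096 + i = 2058 ∨ a * 4096 + i = 17520 ∨ a * 4096 + i = 4862 ∨ a * 4096 + i = 1303 := by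
    simpa [DIR] using h
  rcases h1 with h1 | h1 | h1 | h1
  · obtain ⟨rfl, rfl⟩ : a = 0 ∧ i = 2058 := by omega
    exact dir_of dir0 (by decide +kernel)
  · obtain ⟨rfl, rfl⟩ : a = 4 ∧ i = 1136 := by omega
    exact dir_of dir1 (by decide +kernel)
  · obtain ⟨rfl, rfl⟩ : a = 1 ∧ i = 766 := by omega
    exact dir_of dir2 (by decide +kernel)
  · obtain ⟨rfl, rfl⟩ : a = 0 ∧ i = 1303 := by omega
    exact dir_of' dir3a dir3b dir3c (by decide +kernel)

theorem hyp : Hyp 8 3510 PT GI DIR GA DE CM d (g D0) := ⟨sq, com, br, gen, dir⟩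

/-- **The table of the generators.** -/
theorem act : ∀ a < 8, ∀ i < 3510, lk 12 (nth PT a) i < 3510 ∧ lk 12 (nth PT a) (lk 12 (nth PT a) i) = i ∧
    d a * T i * d a = T (lk 12 (nth PT a) i) := act_of hyp edges_ok

theorem s_d : ∀ a < 8, (g [.Z3])⁻¹ * d a * g [.Z3] = d (nth sg a) := by
  intro a ha
  have h := eq_of ((allN_iff _ _).1 s_chk a ha)
  rw [g_append, g_append] at h
  rw [mul_assoc, show d a * g [.Z3] = g [.Z3] * d (nth sg a) from h, inv_mul_cancel_left]

/-- **The table of `s`.** -/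
theorem acts : ∀ i < 3510, lk 12 PS i < 3510 ∧ (g [.Z3])⁻¹ * T i * g [.Z3] = T (lk 12 PS i) := by
  refine act_s' (k := 8) (σ := sg) act s_d ?_ ?_ chkS_ok
  · intro a ha
    interval_cases a <;> decide +kernel
  · rw [show lk 12 PS 0 = 3 by decide +kernel]
    exact (s_d 0 (by norm_num)).trans T3.symm

/-! ### words -/

/-- the nine tables -/
def PT9 : List ℕ := [P0, P1, P2, P3, P4, P5, P6, P7, PS]

/-- the nine letters -/
def EL (a : ℕ) : List Ltr := [D0, D1, D2, D3, D4, D5, D6, D7, [.Z3]].getD a []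

/-- the word -/
def fl : List ℕ → List Ltr
  | [] => []
  | a :: l => EL a ++ fl l

theorem act9 : ∀ a < 9, ∀ i < 3510, lk 12 (nth PT9 a) i < 3510 ∧ (g (EL a))⁻¹ * T i * g (EL a) = T (lk 12 (nth PT9 a) i) := by
  have key : ∀ a < 8, ∀ i < 3510, lk 12 (nth PT a) i < 3510 ∧ (d a)⁻¹ * T i * d a = T (lk 12 (nth PT a) i) := by
    intro a ha i hi
    obtain ⟨h1, -, h2⟩ := act a ha i hi
    refine ⟨h1, ?_⟩
    rw [inv_eq_of_mul_eq_one_right (sq a ha)]
    exact h2
  intro a ha i hi
  interval_cases a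
  · exact key 0 (by norm_num) i hi
  · exact key 1 (by norm_num) i hi
  · exact key 2 (by norm_num) i hi
  · exact key 3 (by norm_num) i hi
  · exact key 4 (by norm_num) i hi
  · exact key 5 (by norm_num) i hi
  · exact key 6 (by norm_num) i hi
  · exact key 7 (by norm_num) i hi
  · exact acts i hi

/-- the letters are `< 9` -/
noncomputable def lt9 (l : List ℕ) : Bool := List.rec true (fun x _ ih => band (Nat.blt x 9) ih) l

theorem act_word {l : List ℕ} (hl : lt9 l = true) : ∀ i < 3510, Cfsg.Agent.H763.U33.evr 12 PT9 l i < 3510 ∧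
    (g (fl l))⁻¹ * T i * g (fl l) = T (Cfsg.Agent.H763.U33.evr 12 PT9 l i) := by
  induction l with
  | nil =>
    intro i hi
    refine ⟨hi, ?_⟩
    rw [fl, g_nil, inv_one, one_mul, mul_one]
    rfl
  | cons x l ih =>
    intro i hi
    obtain ⟨h1, h2⟩ := band_true (show band (Nat.blt x 9) (lt9 l) = true from hl)
    obtain ⟨h3, h4⟩ := act9 x (blt_iff.1 h1) i hi
    obtain ⟨h5, h6⟩ := ih h2 _ h3
    rw [Cfsg.Agent.H763.U33.evr_cons]
    refine ⟨h5, ?_⟩
    rw [← h6, ← h4, fl, g_append]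
    group

/-- `tau` -/
def w0 : List ℕ := [6, 5, 3, 4, 7, 4, 5, 3, 4, 1, 2, 0, 1, 3, 6, 4, 1, 3, 0, 1, 0, 2, 1, 0, 4, 3, 5, 6, 7, 4, 3, 1, 0, 2, 1, 3, 6, 3, 1, 4]

/-- `w4` -/
def w1 : List ℕ := [8, 3, 1, 2, 0, 1, 3, 6, 5, 1, 2, 0, 1, 3, 4, 5, 7, 4, 3, 1, 0, 2, 1, 6, 3, 1, 0, 2, 1, 4, 5, 7, 4, 3]

/-- `w5` -/
def w2 : List ℕ := [6, 3, 4, 7, 5, 3, 4, 3, 1, 0, 2, 1, 3, 4, 5, 6, 3, 4, 7, 4, 3, 1, 0, 2, 1, 5, 6]

theorem w0_chk : BM.StageW.chk [.tau] (fl w0) = true := by decide +kernel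

theorem w1_chk : BM.StageW.chk ww4 (fl w1) = true := by decide +kernel

theorem w2_chk : BM.StageW.chk ww5 (fl w2) = true := by decide +kernel

theorem m0_chk : (band (lt9 w0) (allN (fun i => Nat.beq (lk 12 (nth Cfsg.Agent.H763.U33.Dat.tabs 0) i)
    (Cfsg.Agent.H763.U33.evr 12 PT9 w0 i)) 3510)) = true := by decide +kernel

theorem m1_chk : (band (lt9 w1) (allN (fun i => Nat.beq (lk 12 (nth Cfsg.Agent.H763.U33.Dat.tabs 1) i)
    (Cfsg.Agent.H763.U33.evr 12 PT9 w1 i)) 3510)) = true := by decide +kernel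

theorem m2_chk : (band (lt9 w2) (allN (fun i => Nat.beq (lk 12 (nth Cfsg.Agent.H763.U33.Dat.tabs 2) i)
    (Cfsg.Agent.H763.U33.evr 12 PT9 w2 i)) 3510)) = true := by decide +kernel

theorem act_k {l : List ℕ} {v : List Ltr} {t : ℕ} (h : BM.StageW.chk v (fl l) = true)
    (hm : (band (lt9 l) (allN (fun i => Nat.beq (lk 12 t i) (Cfsg.Agent.H763.U33.evr 12 PT9 l i)) 3510)) = true) :
    ∀ i < 3510, lk 12 t i < 3510 ∧ (g v)⁻¹ * T i * g v = T (lk 12 t i) := by
  intro i hi
  obtain ⟨h1, h2⟩ := band_true hm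
  have h3 := Nat.eq_of_beq_eq_true ((allN_iff _ _).1 h2 i hi)
  rw [eq_of h, h3]
  exact act_word h1 i hi

/-- **The three letters.** -/
theorem act3 : ∀ k < 3, ∀ i < 3510, lk 12 (nth Cfsg.Agent.H763.U33.Dat.tabs k) i < 3510 ∧
    (Cfsg.Agent.H698.U33.S3 k)⁻¹ * T i * Cfsg.Agent.H698.U33.S3 k = T (lk 12 (nth Cfsg.Agent.H763.U33.Dat.tabs k) i) := by
  intro k hk
  interval_cases k
  · exact act_k w0_chk m0_chk
  · exact act_k w1_chk m1_chk
  · exact act_k w2_chk m2_chk

end Cfsg.Agent.H924.U33.Act
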