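import Cfsg.Agent.H123.Cls.Cover

/-!
# S5525, box H2: a table of conjugates proved by deductions (helper924)

`d a` (`a < k`) involutions of a group which commute or satisfy the braid relation, `tt i` (`i < n`) the elements defined by
the tree (`ga i`, `DE i`). The table `d a * tt i * d a = tt (pi a i)` is proved edge by edge: every directed edge `(a, i)` has a
rank and a code: `b < k` : `d a = d b * d a * d b` or `d a = d b * d a * d b * d a * d b` along edges of smaller rank; 12 : tree;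
13 : the inverse edge; 14 : a fact of the list `DIR`; 15 : `tt i = d a'`, `a'` commutes with `a`.
-/

set_option autoImplicit false

namespace Cfsg.Agent.H924.U33

open Cfsg.Agent.H123.Cls
open Cfsg.Agent.Lib.BitNetSimple (force force_eq)

/-- selection -/
noncomputable def sel (c x y : Bool) : Bool := Bool.rec y x c

theorem sel_cases {c x y : Bool} (h : sel c x y = true) : (c = true ∧ x = true) ∨ (c = false ∧ y = true) := by
  cases c
  · exact Or.inr ⟨rfl, h⟩
  · exact Or.inl ⟨rfl, h⟩

/-- do `a`, `b` commute -/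
noncomputable def cmb (k CM a b : ℕ) : Bool := Nat.beq (lk 1 CM (Nat.add (Nat.mul k a) b)) 1

/-- one deduction: `b a b` or `b a b a b` -/
noncomputable def ded (k : ℕ) (PT RT : List ℕ) (CM a b i j r : ℕ) : Bool :=
  band (Nat.blt (lk 16 (nth RT b) i) r) (force (lk 12 (nth PT b) i) fun x1 =>
  band (Nat.blt (lk 16 (nth RT a) x1) r) (force (lk 12 (nth PT a) x1) fun x2 =>
  band (Nat.blt (lk 16 (nth RT b) x2) r) (force (lk 12 (nth PT b) x2) fun x3 =>
  sel (cmb k CM a b) (Nat.beq x3 j)
    (band (Nat.blt (lk 16 (nth RT a) x3) r) (force (lk 12 (nth PT a) x3) fun x4 =>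
    band (Nat.blt (lk 16 (nth RT b) x4) r) (force (lk 12 (nth PT b) x4) fun x5 => Nat.beq x5 j))))))

/-- membership -/
noncomputable def memb (c : ℕ) (l : List ℕ) : Bool := List.rec false (fun x _ ih => sel (Nat.beq x c) true ih) l

theorem memb_iff {c : ℕ} {l : List ℕ} (h : memb c l = true) : c ∈ l := by
  induction l with
  | nil => exact absurd (show false = true from h) (by decide)
  | cons x l ih =>
    rcases sel_cases (show sel (Nat.beq x c) true (memb c l) = true from h) with ⟨h1, -⟩ | ⟨-, h2⟩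
    · rw [Nat.eq_of_beq_eq_true h1]
      exact List.mem_cons_self
    · exact List.mem_cons_of_mem _ (ih h2)

/-- is there `a' < m` with `GI a' = i` commuting with `a` -/
noncomputable def genb (k CM : ℕ) (GI : List ℕ) (a i m : ℕ) : Bool :=
  Nat.rec false (fun a' ih => sel (band (Nat.beq (nth GI a') i) (cmb k CM a a')) true ih) m

theorem genb_spec {k CM : ℕ} {GI : List ℕ} {a i m : ℕ} (h : genb k CM GI a i m = true) :
    ∃ a' < m, nth GI a' = i ∧ cmb k CM a a' = true := by
  induction m with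
  | zero => exact absurd (show false = true from h) (by decide)
  | succ m ih =>
    rcases sel_cases (show sel (band (Nat.beq (nth GI m) i) (cmb k CM a m)) true (genb k CM GI a i m) = true from h) with
      ⟨h1, -⟩ | ⟨-, h2⟩
    · obtain ⟨h3, h4⟩ := band_true h1
      exact ⟨m, Nat.lt_succ_self m, Nat.eq_of_beq_eq_true h3, h4⟩
    · obtain ⟨a', h3, h4⟩ := ih h2
      exact ⟨a', h3.trans (Nat.lt_succ_self m), h4⟩

/-- one directed edge -/
noncomputable def edge (k n : ℕ) (PT RT BT GI DIR : List ℕ) (GA DE CM a i : ℕ) : Bool :=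
  force (lk 12 (nth PT a) i) fun j => band (Nat.blt j n) (band (Nat.beq (lk 12 (nth PT a) j) i)
    (force (lk 16 (nth RT a) i) fun r => force (lk 4 (nth BT a) i) fun b =>
      sel (Nat.blt b k) (sel (Nat.beq a b) false (ded k PT RT CM a b i j r))
        (sel (Nat.beq b 12) (band (Nat.beq (lk 4 GA j) a) (Nat.beq (lk 8 DE j) (Nat.succ (lk 8 DE i))))
          (sel (Nat.beq b 13) (Nat.blt (lk 16 (nth RT a) j) r)
            (sel (Nat.beq b 14) (memb (Nat.add (Nat.mul a 4096) i) DIR)
              (band (genb k CM GI a i k) (Nat.beq j i)))))))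

/-- all directed edges -/
noncomputable def edges (k n : ℕ) (PT RT BT GI DIR : List ℕ) (GA DE CM : ℕ) : Bool :=
  allN (fun a => allN (fun i => edge k n PT RT BT GI DIR GA DE CM a i) n) k

section group

variable {G : Type*} [Group G]

/-- the elements defined by the tree -/
noncomputable def tn (PT : List ℕ) (GA : ℕ) (d : ℕ → G) (t0 : G) : ℕ → ℕ → G
  | 0, _ => t0
  | f + 1, i => d (lk 4 GA i) * tn PT GA d t0 f (lk 12 (nth PT (lk 4 GA i)) i) * d (lk 4 GA i)

/-- the elements -/
noncomputable def tt (PT : List ℕ) (GA DE : ℕ) (d : ℕ → G) (t0 : G) (i : ℕ) : G := tn PT GA d t0 (lk 8 DE i) i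

theorem tt_succ {PT : List ℕ} {GA DE : ℕ} {d : ℕ → G} {t0 : G} {i j a : ℕ} (ha : lk 4 GA j = a)
    (hi : lk 12 (nth PT a) j = i) (hd : lk 8 DE j = lk 8 DE i + 1) :
    tt PT GA DE d t0 j = d a * tt PT GA DE d t0 i * d a := by
  unfold tt
  rw [hd, tn, ha, hi]

/-- the facts in the group -/
structure Hyp (k n : ℕ) (PT GI DIR : List ℕ) (GA DE CM : ℕ) (d : ℕ → G) (t0 : G) : Prop where
  sq : ∀ a < k, d a * d a = 1
  com : ∀ a < k, ∀ b < k, cmb k CM a b = true → d a * d b = d b * d a
  br : ∀ a < k, ∀ b < k, a ≠ b → cmb k CM a b = false → d a * d b * d a = d b * d a * d b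
  gen : ∀ a < k, tt PT GA DE d t0 (nth GI a) = d a
  dir : ∀ a < k, ∀ i < n, a * 4096 + i ∈ DIR →
    d a * tt PT GA DE d t0 i * d a = tt PT GA DE d t0 (lk 12 (nth PT a) i)

variable {k n : ℕ} {PT RT BT GI DIR : List ℕ} {GA DE CM : ℕ} {d : ℕ → G} {t0 : G}

theorem blt_iff {a b : ℕ} : Nat.blt a b = true ↔ a < b := by rw [Nat.blt_eq]

theorem not_beq {a b : ℕ} (h : Nat.beq a b = false) : a ≠ b := by
  rintro rfl
  rw [Nat.beq_refl] at h
  exact absurd h (by decide)

/-- **The table.** -/
theorem act_of (H : Hyp k n PT GI DIR GA DE CM d t0) (h : edges k n PT RT BT GI DIR GA DE CM = true) :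
    ∀ a < k, ∀ i < n, lk 12 (nth PT a) i < n ∧ lk 12 (nth PT a) (lk 12 (nth PT a) i) = i ∧
      d a * tt PT GA DE d t0 i * d a = tt PT GA DE d t0 (lk 12 (nth PT a) i) := by
  have h0 : ∀ a < k, ∀ i < n, edge k n PT RT BT GI DIR GA DE CM a i = true := fun a ha i hi =>
    (allN_iff _ _).1 ((allN_iff _ _).1 h a ha) i hi
  have h1 : ∀ a < k, ∀ i < n, lk 12 (nth PT a) i < n ∧ lk 12 (nth PT a) (lk 12 (nth PT a) i) = i := by
    intro a ha i hi
    have h2 := h0 a ha i hi
    unfold edge at h2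
    rw [force_eq] at h2
    obtain ⟨h3, h4⟩ := band_true h2
    obtain ⟨h5, -⟩ := band_true h4
    exact ⟨blt_iff.1 h3, Nat.eq_of_beq_eq_true h5⟩
  have key : ∀ r : ℕ, ∀ a < k, ∀ i < n, lk 16 (nth RT a) i = r →
      d a * tt PT GA DE d t0 i * d a = tt PT GA DE d t0 (lk 12 (nth PT a) i) := by
    intro r
    induction r using Nat.strong_induction_on with
    | _ r ih =>
    intro a ha i hi hr
    obtain ⟨hj, hji⟩ := h1 a ha i hi
    have h2 := h0 a ha i hi
    unfold edge at h2
    rw [force_eq, force_eq, force_eq, hr] at h2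
    obtain ⟨-, h2⟩ := band_true h2
    obtain ⟨-, h2⟩ := band_true h2
    generalize hb : lk 4 (nth BT a) i = b at h2
    have hI : ∀ c < k, ∀ x < n, Nat.blt (lk 16 (nth RT c) x) r = true →
        d c * tt PT GA DE d t0 x * d c = tt PT GA DE d t0 (lk 12 (nth PT c) x) := fun c hc x hx h => ih _ (blt_iff.1 h) c hc x hx rfl
    rcases sel_cases h2 with ⟨hbk, h3⟩ | ⟨-, h3⟩
    · -- a deduction
      have hbk := blt_iff.1 hbk
      rcases sel_cases h3 with ⟨-, h4⟩ | ⟨hab, h4⟩
      · exact absurd h4 (by decide)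
      have hab := not_beq hab
      unfold ded at h4
      rw [force_eq] at h4
      obtain ⟨r1, h4⟩ := band_true h4
      rw [force_eq] at h4
      obtain ⟨r2, h4⟩ := band_true h4
      rw [force_eq] at h4
      obtain ⟨r3, h4⟩ := band_true h4
      have n1 := (h1 b hbk i hi).1
      have n2 := (h1 a ha _ n1).1
      have n3 := (h1 b hbk _ n2).1
      have e1 := hI b hbk i hi r1
      have e2 := hI a ha _ n1 r2
      have e3 := hI b hbk _ n2 r3
      rcases sel_cases h4 with ⟨hc, h5⟩ | ⟨hc, h5⟩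
      · have e4 := Nat.eq_of_beq_eq_true h5
        have hcm := H.com a ha b hbk hc
        rw [← e4, ← e3, ← e2, ← e1]
        have hbb := H.sq b hbk
        have k1 : d b * (d a * (d b * tt PT GA DE d t0 i * d b) * d a) * d b =
            (d b * d a * d b) * tt PT GA DE d t0 i * (d b * d a * d b) := by group
        have k2 : d b * d a * d b = d a := by rw [mul_assoc, hcm, ← mul_assoc, hbb, one_mul]
        rw [k1, k2]
      · rw [force_eq] at h5
        obtain ⟨r4, h5⟩ := band_true h5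
        rw [force_eq] at h5
        obtain ⟨r5, h5⟩ := band_true h5
        have n4 := (h1 a ha _ n3).1
        have e4 := hI a ha _ n3 r4
        have e5 := hI b hbk _ n4 r5
        have e6 := Nat.eq_of_beq_eq_true h5
        have hbr := H.br a ha b hbk hab hc
        rw [← e6, ← e5, ← e4, ← e3, ← e2, ← e1]
        have hbb := H.sq b hbk
        have k1 : d b * (d a * (d b * (d a * (d b * tt PT GA DE d t0 i * d b) * d a) * d b) * d a) * d b =
            (d b * (d a * d b * d a) * d b) * tt PT GA DE d t0 i * (d b * (d a * d b * d a) * d b) := by group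
        have k2 : d b * (d a * d b * d a) * d b = d a := by
          rw [hbr]
          calc d b * (d b * d a * d b) * d b = (d b * d b) * d a * (d b * d b) := by group
            _ = d a := by rw [hbb, one_mul, mul_one]
        rw [k1, k2]
    · rcases sel_cases h3 with ⟨-, h4⟩ | ⟨-, h4⟩
      · -- the tree
        obtain ⟨h5, h6⟩ := band_true h4
        exact (tt_succ (Nat.eq_of_beq_eq_true h5) hji (Nat.eq_of_beq_eq_true h6)).symm
      · rcases sel_cases h4 with ⟨-, h5⟩ | ⟨-, h5⟩
        · -- the inverse edge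
          have e1 := hI a ha _ hj h5
          rw [hji] at e1
          rw [← e1]
          have haa := H.sq a ha
          calc d a * (d a * tt PT GA DE d t0 (lk 12 (nth PT a) i) * d a) * d a =
              (d a * d a) * tt PT GA DE d t0 (lk 12 (nth PT a) i) * (d a * d a) := by group
            _ = _ := by rw [haa, one_mul, mul_one]
        · rcases sel_cases h5 with ⟨-, h6⟩ | ⟨-, h6⟩
          · exact H.dir a ha i hi (memb_iff h6)
          · obtain ⟨h7, h8⟩ := band_true h6
            obtain ⟨a', ha', hg, hc⟩ := genb_spec h7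
            rw [Nat.eq_of_beq_eq_true h8, ← hg, H.gen a' ha', H.com a ha a' ha' hc, mul_assoc, H.sq a ha, mul_one]
  exact fun a ha i hi => ⟨(h1 a ha i hi).1, (h1 a ha i hi).2, key _ a ha i hi rfl⟩

/-- `tt` at the generators, along the diagram -/
theorem gen_step {p a : ℕ} {x m y : ℕ} (hx : tt PT GA DE d t0 x = d p) (hpp : d p * d p = 1)
    (hbr : d p * d a * d p = d a * d p * d a) (h1 : lk 4 GA m = a) (h2 : lk 12 (nth PT a) m = x)
    (h3 : lk 8 DE m = lk 8 DE x + 1) (h4 : lk 4 GA y = p) (h5 : lk 12 (nth PT p) y = m) (h6 : lk 8 DE y = lk 8 DE m + 1) :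
    tt PT GA DE d t0 y = d a := by
  rw [tt_succ h4 h5 h6, tt_succ h1 h2 h3, hx]
  calc d p * (d a * d p * d a) * d p = d p * (d p * d a * d p) * d p := by rw [hbr]
    _ = (d p * d p) * d a * (d p * d p) := by group
    _ = d a := by rw [hpp, one_mul, mul_one]

/-- an element `s` permuting the `d a` -/
theorem act_s {s : G} {σ : List ℕ} {PS : ℕ} (hact : ∀ a < k, ∀ i < n, lk 12 (nth PT a) i < n ∧
      lk 12 (nth PT a) (lk 12 (nth PT a) i) = i ∧
      d a * tt PT GA DE d t0 i * d a = tt PT GA DE d t0 (lk 12 (nth PT a) i))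
    (hs : ∀ a < k, s⁻¹ * d a * s = d (nth σ a)) (hσ : ∀ a < k, nth σ a < k) (hPS : ∀ i < n, lk 12 PS i < n)
    (hroot : ∀ i < n, lk 8 DE i = 0 → s⁻¹ * t0 * s = tt PT GA DE d t0 (lk 12 PS i))
    (htree : ∀ i < n, lk 8 DE i ≠ 0 → lk 4 GA i < k ∧
      lk 8 DE i = lk 8 DE (lk 12 (nth PT (lk 4 GA i)) i) + 1 ∧
      lk 12 PS i = lk 12 (nth PT (nth σ (lk 4 GA i))) (lk 12 PS (lk 12 (nth PT (lk 4 GA i)) i))) :
    ∀ i < n, s⁻¹ * tt PT GA DE d t0 i * s = tt PT GA DE d t0 (lk 12 PS i) := by
  have key : ∀ f : ℕ, ∀ i < n, lk 8 DE i = f → s⁻¹ * tt PT GA DE d t0 i * s = tt PT GA DE d t0 (lk 12 PS i) := by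
    intro f
    induction f with
    | zero =>
      intro i hi h0
      have : tt PT GA DE d t0 i = t0 := by
        unfold tt
        rw [h0, tn]
      rw [this]
      exact hroot i hi h0
    | succ f ih =>
      intro i hi hf
      obtain ⟨h1, h2, h3⟩ := htree i hi (by omega)
      set a := lk 4 GA i with ha
      have hp := (hact a h1 i hi).1
      have h4 := ih _ hp (by omega)
      rw [tt_succ (i := lk 12 (nth PT a) i) ha.symm rfl h2, h3, ← (hact _ (hσ a h1) _ (hPS _ hp)).2.2, ← h4, ← hs a h1]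
      group
  exact fun i hi => key _ i hi rfl

/-- the check for `s` (the only point of depth 0 is the point 0) -/
noncomputable def chkS (k n : ℕ) (PT σ : List ℕ) (GA DE PS : ℕ) : Bool :=
  allN (fun i => band (Nat.blt (lk 12 PS i) n) (sel (Nat.beq (lk 8 DE i) 0) (Nat.beq i 0)
    (force (lk 4 GA i) fun a => band (Nat.blt a k) (force (lk 12 (nth PT a) i) fun p =>
      band (Nat.beq (lk 8 DE i) (Nat.succ (lk 8 DE p)))
        (Nat.beq (lk 12 PS i) (lk 12 (nth PT (nth σ a)) (lk 12 PS p))))))) n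

theorem act_s' {s : G} {σ : List ℕ} {PS : ℕ} (hact : ∀ a < k, ∀ i < n, lk 12 (nth PT a) i < n ∧
      lk 12 (nth PT a) (lk 12 (nth PT a) i) = i ∧
      d a * tt PT GA DE d t0 i * d a = tt PT GA DE d t0 (lk 12 (nth PT a) i))
    (hs : ∀ a < k, s⁻¹ * d a * s = d (nth σ a)) (hσ : ∀ a < k, nth σ a < k)
    (hroot : s⁻¹ * t0 * s = tt PT GA DE d t0 (lk 12 PS 0)) (h : chkS k n PT σ GA DE PS = true) :
    ∀ i < n, lk 12 PS i < n ∧ s⁻¹ * tt PT GA DE d t0 i * s = tt PT GA DE d t0 (lk 12 PS i) := by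
  have h1 := (allN_iff _ _).1 h
  have hPS : ∀ i < n, lk 12 PS i < n := fun i hi => blt_iff.1 (band_true (h1 i hi)).1
  refine fun i hi => ⟨hPS i hi, act_s hact hs hσ hPS ?_ ?_ i hi⟩
  · intro i hi h0
    rcases sel_cases (band_true (h1 i hi)).2 with ⟨-, h2⟩ | ⟨h2, -⟩
    · rw [Nat.eq_of_beq_eq_true h2]
      exact hroot
    · exact absurd h0 (not_beq h2)
  · intro i hi h0
    rcases sel_cases (band_true (h1 i hi)).2 with ⟨h2, -⟩ | ⟨-, h2⟩
    · exact absurd (Nat.eq_of_beq_eq_true h2) h0
    · rw [force_eq] at h2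
      obtain ⟨h3, h4⟩ := band_true h2
      rw [force_eq] at h4
      obtain ⟨h5, h6⟩ := band_true h4
      exact ⟨blt_iff.1 h3, Nat.eq_of_beq_eq_true h5, Nat.eq_of_beq_eq_true h6⟩

end group

end Cfsg.Agent.H924.U33
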