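import Cfsg.Agent.H924.U33.Act
import Cfsg.Agent.H149.U33.Inj
import Cfsg.Agent.H913.U33.Ne

/-!
# S5525, box H2: the family of the 3510 transpositions (helper924)

`t` : `Fin 3510 → G`; `hact` : the rule of conjugation for `S3` (`tau, w4, w5`) on the tables of helper763; `inj` : `t` is
injective.
-/

set_option autoImplicit false
set_option maxRecDepth 100000

namespace Cfsg.Agent.H924.U33.Fin

open Cfsg.Agent.BabyM.Conc Cfsg.Agent.H819.U33 Cfsg.Agent.H123.Cls Cfsg.Agent.H924.U33 Cfsg.Agent.H924.U33.Tab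
open Cfsg.Agent.H924.U33.Rel Cfsg.Agent.H924.U33.Act

/-- The transpositions. -/
noncomputable def t (i : Fin 3510) : G := T i

/-- **The rule of conjugation.** -/
theorem hact : ∀ k < 3, ∀ i : Fin 3510, ∃ j : Fin 3510, (j : ℕ) = lk 12 (nth Cfsg.Agent.H763.U33.Dat.tabs k) i ∧
    (Cfsg.Agent.H698.U33.S3 k)⁻¹ * t i * Cfsg.Agent.H698.U33.S3 k = t j := by
  intro k hk i
  obtain ⟨h1, h2⟩ := act3 k hk i i.2
  exact ⟨⟨_, h1⟩, rfl, h2⟩

theorem ne02 : ne D0 D2 = true := by decide +kernel

theorem ne01 : ne D0 D1 = true := by decide +kernel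

theorem t0 : t 0 = g D0 := T0

theorem t3 : t ⟨3, by norm_num⟩ = g D2 := T3

theorem t381 : t ⟨381, by norm_num⟩ = g D1 := T381

/-- **The transpositions are different.** -/
theorem inj : Function.Injective t := by
  refine Cfsg.Agent.H149.U33.Inj.inj_of' hact ?_ ?_
  · rw [t0, t3]
    exact ne_of ne02
  · rw [t0, t381]
    exact ne_of ne01

/-- the word of a transposition -/
theorem t_word (i : Fin 3510) : t i = g (tw i) := T_eq i

end Cfsg.Agent.H924.U33.Fin
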