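import Cfsg.Agent.H819.U33.Words
import Cfsg.Agent.H924.U33.Tab

/-!
# S5525, box H2: the relations in the group (helper924; words of helper995)
-/

set_option autoImplicit false
set_option maxRecDepth 100000

namespace Cfsg.Agent.H924.U33.Rel

open Cfsg.Agent.BabyM.Conc Cfsg.Agent.H819.U33 Cfsg.Agent.H123.Cls Cfsg.Agent.H924.U33 Cfsg.Agent.H924.U33.Tab

/-- the transposition of the point 0 -/
def D0 : List Ltr := [.p10, .xi, .Z1, .xii, .p]

/-- the transposition of the point 381 -/
def D1 : List Ltr := [.X4, .p6, .tau, .xi, .hi, .xi, .tau, .p3, .xii, .Z10, .Z7, .xi, .p8, .taui, .xii, .h, .xii, .taui, .p5, .X4]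

/-- the transposition of the point 3 -/
def D2 : List Ltr := [.p10, .xii, .Z1, .xi, .p]

/-- the transposition of the point 3453 -/
def D3 : List Ltr := [.X1, .p, .y2, .xi, .p5, .xii, .tau, .p8, .xi, .Z1, .xii, .p3, .taui, .xi, .p6, .xii, .y2, .p10, .X1]

/-- the transposition of the point 1339 -/
def D4 : List Ltr := [.y4, .p6, .xi, .p, .xi, .taui, .p6, .xii, .Z2, .z, .xi, .p5, .tau, .xii, .p10, .xii, .p5, .y4]

/-- the transposition of the point 1214 -/
def D5 : List Ltr := [.p6, .y4, .xi, .hi, .xi, .taui, .p3, .xii, .Z2, .xi, .p8, .tau, .xii, .h, .xii, .y4, .p5]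

/-- the transposition of the point 382 -/
def D6 : List Ltr := [.p7, .xi, .p2, .y4, .xii, .tau, .p6, .xi, .Z8, .xii, .p5, .taui, .xi, .y4, .p9, .xii, .p4]

/-- the transposition of the point 1191 -/
def D7 : List Ltr := [.p6, .y4, .xi, .hi, .xii, .taui, .p3, .xii, .Z2, .xi, .p8, .tau, .xi, .h, .xii, .y4, .p5]

/-- the words -/
def DL (a : ℕ) : List Ltr := [D0, D1, D2, D3, D4, D5, D6, D7].getD a []

/-- the transpositions -/
noncomputable def d (a : ℕ) : G := g (DL a)

/-- the word of `tt i` -/
noncomputable def twn : ℕ → ℕ → List Ltr :=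
  Nat.rec (fun _ => D0) fun _ ih i => DL (lk 4 GA i) ++ (ih (lk 12 (nth PT (lk 4 GA i)) i) ++ DL (lk 4 GA i))

/-- the word of `tt i` -/
noncomputable def tw (i : ℕ) : List Ltr := twn (lk 8 DE i) i

/-- the elements -/
noncomputable def T (i : ℕ) : G := tt PT GA DE d (g D0) i

theorem tn_eq (f i : ℕ) : tn PT GA d (g D0) f i = g (twn f i) := by
  induction f generalizing i with
  | zero => rfl
  | succ f ih =>
    have e : twn (f + 1) i = DL (lk 4 GA i) ++ (twn f (lk 12 (nth PT (lk 4 GA i)) i) ++ DL (lk 4 GA i)) := rfl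
    rw [e, g_append, g_append, ← ih, tn, mul_assoc]
    rfl

theorem T_eq (i : ℕ) : T i = g (tw i) := tn_eq _ _

/-! ### the checks -/

theorem sq_chk : (allN (fun a => BM.StageW.chk (DL a ++ DL a) []) 8) = true := by decide +kernel

/-- the Coxeter relation of `a`, `b` -/
noncomputable def relb (a b : ℕ) : Bool :=
  sel (cmb 8 CM a b) (BM.StageW.chk (DL a ++ DL b) (DL b ++ DL a))
    (BM.StageW.chk (DL a ++ (DL b ++ DL a)) (DL b ++ (DL a ++ DL b)))

theorem rel1 : (allN (fun b => relb 1 b) 1) = true := by decide +kernel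

theorem rel2 : (allN (fun b => relb 2 b) 2) = true := by decide +kernel

theorem rel3 : (allN (fun b => relb 3 b) 3) = true := by decide +kernel

theorem rel4 : (allN (fun b => relb 4 b) 4) = true := by decide +kernel

theorem rel5 : (allN (fun b => relb 5 b) 5) = true := by decide +kernel

theorem rel6 : (allN (fun b => relb 6 b) 6) = true := by decide +kernel

theorem rel7 : (allN (fun b => relb 7 b) 7) = true := by decide +kernel

theorem rel_chk : (allN (fun a => allN (fun b => relb a b) a) 8) = true := by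
  refine (allN_iff _ _).2 fun a ha => ?_
  interval_cases a
  · rfl
  · exact rel1
  · exact rel2
  · exact rel3
  · exact rel4
  · exact rel5
  · exact rel6
  · exact rel7

theorem s_chk : (allN (fun a => BM.StageW.chk (DL a ++ [.Z3]) ([.Z3] ++ DL (nth sg a))) 8) = true := by decide +kernel

theorem dir0 : BM.StageW.chk (DL 0 ++ (tw 2058 ++ DL 0)) (tw 2515) = true := by decide +kernel

theorem dir1 : BM.StageW.chk (DL 4 ++ (tw 1136 ++ DL 4)) (tw 2572) = true := by decide +kernel

theorem dir2 : BM.StageW.chk (DL 1 ++ (tw 766 ++ DL 1)) (tw 1260) = true := by decide +kernel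

/-- `tau, w4, w5` and their inverses -/
def SL (k : ℕ) : List Ltr := [[.tau], ww4, ww5, BabyM.TransInv.winv [.tau], BabyM.TransInv.winv ww4,
  BabyM.TransInv.winv ww5].getD k []

/-- the word -/
def sp : List ℕ → List Ltr
  | [] => []
  | k :: l => SL k ++ sp l

/-- a conjugate of the first transposition -/
def cw (l : List ℕ) : List Ltr := BabyM.TransInv.winv (sp l) ++ (D0 ++ sp l)

def l1303 : List ℕ := [3, 1, 3, 1, 2, 4, 3, 4, 3, 5, 1, 0, 4]

def l1314 : List ℕ := [3, 1, 3, 1, 2, 1, 3, 1, 3, 5, 4, 0, 4]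

theorem dir3a : BM.StageW.chk (tw 1303) (cw l1303) = true := by decide +kernel

theorem dir3b : BM.StageW.chk (tw 1314) (cw l1314) = true := by decide +kernel

theorem dir3c : BM.StageW.chk (DL 0 ++ (cw l1303 ++ DL 0)) (cw l1314) = true := by decide +kernel

end Cfsg.Agent.H924.U33.Rel
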